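import Mathlib

/-!
# S4033 (two p-regular class sizes): interface definitions for the team project

`HypX G p a`: for every noncentral p-regular `u`, every p-regular element of `C(u)` is central in
`C(u)`, and `|C(u)| = p^k * a`.  The packages `Pkg*` below are the statements to be proved by
helpers; the assembly file combines them.
-/

set_option autoImplicit false

namespace Cfsg.Agent.Lib.Helper9.S4033

universe u

/-- Hypothesis X. -/
def HypX (G : Type u) [Group G] (p a : ℕ) : Prop :=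
  ∀ u : G, (orderOf u).Coprime p → u ∉ Subgroup.center G →
    (∀ y ∈ Subgroup.centralizer ({u} : Set G), (orderOf y).Coprime p →
        ∀ c ∈ Subgroup.centralizer ({u} : Set G), y * c = c * y) ∧
    ∃ k : ℕ, Nat.card (Subgroup.centralizer ({u} : Set G)) = p ^ k * a

/-- There is a noncentral element of `r`-power order. -/
def NC (G : Type u) [Group G] (r : ℕ) : Prop :=
  ∃ x : G, x ∉ Subgroup.center G ∧ ∃ k : ℕ, orderOf x = r ^ k

/-- Two distinct primes `≠ p` with noncentral elements of prime-power order. -/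
def TwoPrimes (G : Type u) [Group G] (p : ℕ) : Prop :=
  ∃ s t : ℕ, s.Prime ∧ t.Prime ∧ s ≠ t ∧ s ≠ p ∧ t ≠ p ∧ NC G s ∧ NC G t

/-- `|G| = p^k * a`. -/
def Full (G : Type u) [Group G] (p a : ℕ) : Prop := ∃ k : ℕ, Nat.card G = p ^ k * a

/-- [PRIM] an element lies in a subgroup as soon as its powers of prime-power order do. -/
def PkgPrim : Prop :=
  ∀ (G : Type u) [Group G] (H : Subgroup G) (h : G), IsOfFinOrder h →
    (∀ (r j : ℕ), r.Prime → (∃ k : ℕ, orderOf (h ^ j) = r ^ k) → h ^ j ∈ H) → h ∈ H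

/-- [MEM] the "member" `A_u` = set of p-regular elements of `C(u)`. -/
def PkgMem : Prop :=
  ∀ (G : Type u) [Group G] [Finite G] (p a : ℕ), p.Prime → a.Coprime p → HypX G p a →
    ∀ u : G, (orderOf u).Coprime p → u ∉ Subgroup.center G →
      ∃ A : Subgroup G, IsMulCommutative A ∧
        (∀ y : G, y ∈ A ↔ y ∈ Subgroup.centralizer ({u} : Set G) ∧ (orderOf y).Coprime p) ∧
        Nat.card A = a ∧
        (∀ v ∈ A, v ∉ Subgroup.center G →
          Subgroup.centralizer ({v} : Set G) = Subgroup.centralizer ({u} : Set G)) ∧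
        (∀ c ∈ Subgroup.centralizer ({u} : Set G), ∀ y ∈ A, c * y = y * c)

/-- [ACT] every noncentral p-regular `u` commutes with a noncentral `r`-element. -/
def PkgAct : Prop :=
  ∀ (G : Type u) [Group G] [Finite G] (p a : ℕ), p.Prime → a.Coprime p → HypX G p a →
    ∀ r : ℕ, r.Prime → r ≠ p → NC G r →
      ∀ u : G, (orderOf u).Coprime p → u ∉ Subgroup.center G →
        ∃ v : G, v ∉ Subgroup.center G ∧ (∃ k : ℕ, orderOf v = r ^ k) ∧ v * u = u * v

/-- [GR] if `r`-part of `a` is smaller than `r`-part of `|G|`, some `r`-element normalizes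
`C(u)` without centralizing `u`. -/
def PkgGr : Prop :=
  ∀ (G : Type u) [Group G] [Finite G] (p a : ℕ), p.Prime → a.Coprime p → HypX G p a →
    ∀ u : G, (orderOf u).Coprime p → u ∉ Subgroup.center G →
      ∀ r : ℕ, r.Prime → r ≠ p → a.factorization r < (Nat.card G).factorization r →
        ∃ g : G, (∃ k : ℕ, orderOf g = r ^ k) ∧ g * u ≠ u * g ∧
          Subgroup.centralizer ({g * u * g⁻¹} : Set G) = Subgroup.centralizer ({u} : Set G)

/-- [PA] abstract: an automorphism of order `r` of an abelian group in a group `E` acting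
fixed-point-freely off `Z` cannot normalize a nontrivial `r'`-subgroup of `E`. -/
def PkgPA : Prop :=
  ∀ (V : Type u) [Group V] [Finite V], (∀ x y : V, x * y = y * x) →
    ∀ (E : Subgroup (MulAut V)) (Z : Subgroup V) (r : ℕ), r.Prime →
      (∀ e ∈ E, e ≠ 1 → ∀ v : V, e v = v → v ∈ Z) →
      (∀ e ∈ E, ∀ z ∈ Z, e z = z) →
      (∃ v : V, v ∉ Z ∧ ∃ k : ℕ, orderOf v = r ^ k) →
      ∀ e ∈ E, orderOf e = r →
        ∀ D : Subgroup (MulAut V), D ≤ E → D ≠ ⊥ → (Nat.card D).Coprime r →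
          (∀ d ∈ D, e * d * e⁻¹ ∈ D) → False

/-- [EA] abstract: if no element of prime order `r ≠ p` normalizes a nontrivial `r'`-subgroup,
then at most one prime `≠ p` divides the order. -/
def PkgEA : Prop :=
  ∀ (E : Type u) [Group E] [Finite E] (p : ℕ), p.Prime →
    (∀ r : ℕ, r.Prime → r ≠ p → ∀ e : E, orderOf e = r →
      ∀ D : Subgroup E, D ≠ ⊥ → (Nat.card D).Coprime r → (∀ d ∈ D, e * d * e⁻¹ ∈ D) → False) →
    ∀ s t : ℕ, s.Prime → t.Prime → s ≠ p → t ≠ p → s ∣ Nat.card E → t ∣ Nat.card E → s = t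

/-- [PE] abstract: PA + EA glued. -/
def PkgPE : Prop :=
  ∀ (V : Type u) [Group V] [Finite V], (∀ x y : V, x * y = y * x) →
    ∀ (E : Subgroup (MulAut V)) (Z : Subgroup V) (p : ℕ), p.Prime →
      (∀ e ∈ E, e ≠ 1 → ∀ v : V, e v = v → v ∈ Z) →
      (∀ e ∈ E, ∀ z ∈ Z, e z = z) →
      (∀ r : ℕ, r.Prime → r ≠ p → r ∣ Nat.card E → ∃ v : V, v ∉ Z ∧ ∃ k : ℕ, orderOf v = r ^ k) →
      ∀ s t : ℕ, s.Prime → t.Prime → s ≠ p → t ≠ p → s ∣ Nat.card E → t ∣ Nat.card E → s = t

/-- [E] at most one prime `s ≠ p` has `s`-part of `a` smaller than `s`-part of `|G|`. -/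
def PkgE : Prop :=
  ∀ (G : Type u) [Group G] [Finite G] (p a : ℕ), p.Prime → a.Coprime p → HypX G p a →
    (∃ u : G, (orderOf u).Coprime p ∧ u ∉ Subgroup.center G) →
    ∀ s t : ℕ, s.Prime → t.Prime → s ≠ p → t ≠ p →
      a.factorization s < (Nat.card G).factorization s →
      a.factorization t < (Nat.card G).factorization t → s = t

/-- [K] Kazarin step: a solvable normal subgroup containing a noncentral p-regular element. -/
def PkgK : Prop :=
  ∀ (G : Type u) [Group G] [Finite G] (p a : ℕ), p.Prime → a.Coprime p → HypX G p a →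
    (∃ u : G, (orderOf u).Coprime p ∧ u ∉ Subgroup.center G) →
    ∀ s : ℕ, s.Prime → s ≠ p → a.factorization s < (Nat.card G).factorization s →
      (∀ r : ℕ, r.Prime → r ≠ p → r ≠ s → (Nat.card G).factorization r ≤ a.factorization r) →
      ∃ N : Subgroup G, N.Normal ∧ Group.IsSolvable N ∧
        ∃ x ∈ N, x ∉ Subgroup.center G ∧ (orderOf x).Coprime p

/-- [F1a] abstract: a minimal noncentral normal subgroup inside a solvable normal subgroup, when
`O_p(G) = 1`: class ≤ 2 with commutators central in `G`, a `p'`-group, `r`-elements closed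
under products. -/
def PkgF1a : Prop :=
  ∀ (G : Type u) [Group G] [Finite G] (p : ℕ), p.Prime →
    (∀ M : Subgroup G, M.Normal → IsPGroup p M → M = ⊥) →
    ∀ N : Subgroup G, N.Normal → Group.IsSolvable N → ¬ N ≤ Subgroup.center G →
      ∃ K : Subgroup G, K.Normal ∧ K ≤ N ∧ ¬ K ≤ Subgroup.center G ∧
        (∀ x ∈ K, ∀ y ∈ K, x * y * x⁻¹ * y⁻¹ ∈ Subgroup.center G) ∧
        (Nat.card K).Coprime p ∧
        (∀ r : ℕ, r.Prime → ∀ x ∈ K, ∀ y ∈ K, (∃ k : ℕ, orderOf x = r ^ k) →
          (∃ k : ℕ, orderOf y = r ^ k) → ∃ k : ℕ, orderOf (x * y) = r ^ k)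

/-- [F1] a noncentral p-regular `w` with `C(w)` normal. -/
def PkgF1 : Prop :=
  ∀ (G : Type u) [Group G] [Finite G] (p a : ℕ), p.Prime → a.Coprime p → HypX G p a →
    TwoPrimes G p →
    (∀ M : Subgroup G, M.Normal → IsPGroup p M → M = ⊥) →
    ∀ N : Subgroup G, N.Normal → Group.IsSolvable N →
      (∃ x ∈ N, x ∉ Subgroup.center G ∧ (orderOf x).Coprime p) →
      ∃ w : G, w ∉ Subgroup.center G ∧ (orderOf w).Coprime p ∧
        ∀ γ : G, Subgroup.centralizer ({γ * w * γ⁻¹} : Set G) = Subgroup.centralizer ({w} : Set G)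

/-- [F2a] abstract counting: an `s`-group `S` acting by conjugation on a `t`-group `T` with all
stabilizers of points outside `ZT` equal to `ZS` has `[S:ZS] < [T:ZT]`. -/
def PkgF2a : Prop :=
  ∀ (G : Type u) [Group G] [Finite G] (s t : ℕ), s.Prime → t.Prime → s ≠ t →
    ∀ (S ZS T ZT : Subgroup G), IsPGroup s S → IsPGroup t T → ZS ≤ S → ZT ≤ T → ZT ≠ T →
      (∀ b ∈ S, ∀ y ∈ T, b * y * b⁻¹ ∈ T) →
      (∀ b ∈ S, ∀ y ∈ T, b * y * b⁻¹ ∈ ZT → y ∈ ZT) →
      (∀ b ∈ S, ∀ y ∈ T, y ∉ ZT → b * y = y * b → b ∈ ZS) →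
      (∀ b ∈ ZS, ∀ y ∈ T, b * y = y * b) →
      Nat.card S * Nat.card ZT < Nat.card T * Nat.card ZS

/-- [F2] if `C(w)` is normal for a noncentral p-regular `w`, then `|G| = p^k * a`. -/
def PkgF2 : Prop :=
  ∀ (G : Type u) [Group G] [Finite G] (p a : ℕ), p.Prime → a.Coprime p → HypX G p a →
    TwoPrimes G p →
    ∀ w : G, w ∉ Subgroup.center G → (orderOf w).Coprime p →
      (∀ γ : G, Subgroup.centralizer ({γ * w * γ⁻¹} : Set G) = Subgroup.centralizer ({w} : Set G)) →
      Full G p a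

/-- [Qa] abstract: modulo a normal p-subgroup `M`, centralizers of p-regular elements map onto
centralizers, and p-regular elements of the quotient lift to p-regular elements inside any
subgroup. -/
def PkgQa : Prop :=
  ∀ (G : Type u) [Group G] [Finite G] (p : ℕ), p.Prime →
    ∀ (M : Subgroup G) [M.Normal], IsPGroup p M →
      (∀ x : G, (orderOf x).Coprime p → ∀ y : G,
        (QuotientGroup.mk y : G ⧸ M) ∈
          Subgroup.centralizer ({(QuotientGroup.mk x : G ⧸ M)} : Set (G ⧸ M)) →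
        ∃ c ∈ Subgroup.centralizer ({x} : Set G), (QuotientGroup.mk c : G ⧸ M) = QuotientGroup.mk y) ∧
      (∀ (H : Subgroup G) (c : G), c ∈ H → (orderOf (QuotientGroup.mk c : G ⧸ M)).Coprime p →
        ∃ y ∈ H, (orderOf y).Coprime p ∧ (QuotientGroup.mk y : G ⧸ M) = QuotientGroup.mk c)

/-- [Q] passage to the quotient by a normal p-subgroup. -/
def PkgQ : Prop :=
  ∀ (G : Type u) [Group G] [Finite G] (p a : ℕ), p.Prime → a.Coprime p → HypX G p a →
    TwoPrimes G p →
    ∀ (M : Subgroup G) [M.Normal], IsPGroup p M →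
      Full G p a ∨ (HypX (G ⧸ M) p a ∧ TwoPrimes (G ⧸ M) p)

/-- [XP] the case `O_p(G) = 1`. -/
def PkgXP : Prop :=
  ∀ (G : Type u) [Group G] [Finite G] (p a : ℕ), p.Prime → a.Coprime p → HypX G p a →
    TwoPrimes G p → (∀ M : Subgroup G, M.Normal → IsPGroup p M → M = ⊥) → Full G p a

/-- [X] the general case. -/
def PkgX : Prop :=
  ∀ (G : Type u) [Group G] [Finite G] (p a : ℕ), p.Prime → a.Coprime p → HypX G p a →
    TwoPrimes G p → Full G p a

/-- [TA] constant centralizer index on noncentral p-regular elements + two primes ⇒ p-regular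
elements of `C(u)` are central in `C(u)`. -/
def PkgTA : Prop :=
  ∀ (G : Type u) [Group G] [Finite G] (p m : ℕ), p.Prime →
    (∀ x : G, (orderOf x).Coprime p → x ∉ Subgroup.center G →
      (Subgroup.centralizer ({x} : Set G)).index = m) →
    TwoPrimes G p →
    ∀ u : G, (orderOf u).Coprime p → u ∉ Subgroup.center G →
      ∀ y ∈ Subgroup.centralizer ({u} : Set G), (orderOf y).Coprime p →
        ∀ c ∈ Subgroup.centralizer ({u} : Set G), y * c = c * y

/-- [B] if all `r`-elements for `r ∉ {p, q}` are central then `G = (P ⊔ Q) × A`. -/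
def PkgB : Prop :=
  ∀ (G : Type u) [Group G] [Finite G] (p q : ℕ), p.Prime → q.Prime → q ≠ p →
    (∀ (x : G) (r : ℕ), r.Prime → r ≠ p → r ≠ q → (∃ k : ℕ, orderOf x = r ^ k) →
      x ∈ Subgroup.center G) →
    ∃ (P : Sylow p G) (Q : Sylow q G) (A : Subgroup G),
        A ≤ Subgroup.center G ∧
        Nat.card ↥((P : Subgroup G) ⊔ (Q : Subgroup G)) = Nat.card P * Nat.card Q ∧
        ((P : Subgroup G) ⊔ (Q : Subgroup G)).Normal ∧
        ((P : Subgroup G) ⊔ (Q : Subgroup G)) ⊓ A = ⊥ ∧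
        ((P : Subgroup G) ⊔ (Q : Subgroup G)) ⊔ A = ⊤

/-- [H2] unpacking the hypothesis "exactly two p-regular class sizes". -/
def PkgH2 : Prop :=
  ∀ (G : Type u) [Group G] [Finite G] (p : ℕ),
    Set.ncard (Set.range fun x : {x : G // (orderOf x).Coprime p} =>
      (ConjClasses.mk (x : G)).carrier.ncard) = 2 →
    ∃ m : ℕ, ∀ x : G, (orderOf x).Coprime p →
      ((ConjClasses.mk x).carrier.ncard = 1 ∨ (ConjClasses.mk x).carrier.ncard = m) ∧
      (x ∉ Subgroup.center G → (Subgroup.centralizer ({x} : Set G)).index = m)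

end Cfsg.Agent.Lib.Helper9.S4033
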