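import Mathlib
import Cfsg.Agent.Lib.Helper9.S4033.Defs

/-!
# S4033 package [E] (from MEM, ACT, GR, PE)
-/

set_option autoImplicit false

namespace Cfsg.Agent.Lib.Helper9.S4033

universe u

theorem pkgE (hMem : PkgMem.{u}) (hAct : PkgAct.{u}) (hGr : PkgGr.{u}) (hPE : PkgPE.{u}) :
    PkgE.{u} := by
  intro G _ _ p a hp ha hX ⟨u, hu, hun⟩ s t hs ht hsp htp hsa hta
  obtain ⟨A, hAcomm, hAmem, hAcard, hAcent, hAcentral⟩ := hMem G p a hp ha hX u hu hun
  have huA : u ∈ A := (hAmem u).mpr ⟨Subgroup.mem_centralizer_singleton_iff.mpr rfl, hu⟩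
  -- conjugation formula
  have hφ : ∀ (n : Subgroup.normalizer (A : Set G)) (y : A),
      ((A.normalizerMonoidHom n y : A) : G) = (n : G) * y * (n : G)⁻¹ := by
    intro n y; rfl
  -- conjugating by a central-izing element is trivial
  have hφ1 : ∀ n : Subgroup.normalizer (A : Set G),
      (∀ y ∈ A, (n : G) * y = y * (n : G)) → A.normalizerMonoidHom n = 1 := by
    intro n hn
    ext y
    rw [hφ, hn y y.2]
    simp
  have hcomm : ∀ x y : A, x * y = y * x := fun x y => hAcomm.is_comm.comm x y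
  set E : Subgroup (MulAut A) := A.normalizerMonoidHom.range with hE
  set Z : Subgroup A := (Subgroup.center G).subgroupOf A with hZ
  have hfpf : ∀ e ∈ E, e ≠ 1 → ∀ v : A, e v = v → v ∈ Z := by
    rintro e ⟨n, rfl⟩ he v hv
    by_contra hvZ
    have hvn : (v : G) ∉ Subgroup.center G := fun h => hvZ (Subgroup.mem_subgroupOf.mpr h)
    have hC := hAcent v v.2 hvn
    have h1 : (n : G) * v * (n : G)⁻¹ = v := by
      rw [← hφ, hv]
    have hnC : (n : G) ∈ Subgroup.centralizer ({u} : Set G) := by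
      rw [← hC, Subgroup.mem_centralizer_singleton_iff]
      calc (n : G) * (v : G) = ((n : G) * v * (n : G)⁻¹) * (n : G) := by group
        _ = (v : G) * (n : G) := by rw [h1]
    exact he (hφ1 n (fun y hy => hAcentral _ hnC y hy))
  have hZfix : ∀ e ∈ E, ∀ z ∈ Z, e z = z := by
    rintro _ ⟨n, rfl⟩ z hz
    apply Subtype.ext
    rw [hφ]
    have hzc : (z : G) ∈ Subgroup.center G := Subgroup.mem_subgroupOf.mp hz
    have h1 : (n : G) * (z : G) = (z : G) * (n : G) := Subgroup.mem_center_iff.mp hzc (n : G)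
    calc (n : G) * (z : G) * (n : G)⁻¹ = (z : G) * (n : G) * (n : G)⁻¹ := by rw [h1]
      _ = (z : G) := by group
  have hthird : ∀ r : ℕ, r.Prime → r ≠ p → r ∣ Nat.card E →
      ∃ v : A, v ∉ Z ∧ ∃ k : ℕ, orderOf v = r ^ k := by
    intro r hr hrp hrE
    have : Fact r.Prime := ⟨hr⟩
    obtain ⟨e, he⟩ := exists_prime_orderOf_dvd_card' r hrE
    obtain ⟨n, hn⟩ := e.2
    -- r-part of n
    have hn0 : orderOf n ≠ 0 := (orderOf_pos n).ne'
    set m' : ℕ := orderOf n / r ^ (orderOf n).factorization r with hm'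
    have hm'dvd : m' ∣ orderOf n := Nat.div_dvd_of_dvd (Nat.ordProj_dvd _ _)
    have hm'0 : m' ≠ 0 := by
      intro h0
      rw [h0] at hm'dvd
      exact hn0 (Nat.eq_zero_of_zero_dvd hm'dvd)
    have hord : orderOf (n ^ m') = r ^ (orderOf n).factorization r := by
      rw [orderOf_pow_of_dvd hm'0 hm'dvd, hm']
      exact Nat.div_div_self (Nat.ordProj_dvd _ _) hn0
    have hne1 : A.normalizerMonoidHom (n ^ m') ≠ 1 := by
      rw [map_pow, hn]
      intro h1
      have h2 : orderOf (e : MulAut A) ∣ m' := orderOf_dvd_of_pow_eq_one h1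
      rw [Subgroup.orderOf_coe, he] at h2
      exact Nat.not_dvd_ordCompl hr hn0 h2
    have hNC : NC G r := by
      refine ⟨((n ^ m' : Subgroup.normalizer (A : Set G)) : G), ?_, (orderOf n).factorization r, ?_⟩
      · intro hc
        exact hne1 (hφ1 _ (fun y _ => (Subgroup.mem_center_iff.mp hc y).symm))
      · rw [Subgroup.orderOf_coe, hord]
    obtain ⟨v, hvn, ⟨k, hk⟩, hvu⟩ := hAct G p a hp ha hX r hr hrp hNC u hu hun
    have hvA : v ∈ A := by
      refine (hAmem v).mpr ⟨Subgroup.mem_centralizer_singleton_iff.mpr hvu, ?_⟩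
      rw [hk]; exact Nat.Coprime.pow_left k ((Nat.coprime_primes hr hp).mpr hrp)
    refine ⟨⟨v, hvA⟩, fun h => hvn (Subgroup.mem_subgroupOf.mp h), k, ?_⟩
    rw [Subgroup.orderOf_mk, hk]
  -- primes from GR divide |E|
  have hdiv : ∀ q : ℕ, q.Prime → q ≠ p → a.factorization q < (Nat.card G).factorization q →
      q ∣ Nat.card E := by
    intro q hq hqp hqa
    obtain ⟨g, ⟨k, hk⟩, hgu, hgC⟩ := hGr G p a hp ha hX u hu hun q hq hqp hqa
    have hgN : g ∈ Subgroup.normalizer (A : Set G) := by
      rw [Subgroup.mem_normalizer_iff]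
      intro y
      have hord : orderOf (g * y * g⁻¹) = orderOf y := by
        have := MulEquiv.orderOf_eq (MulAut.conj g) y
        rwa [MulAut.conj_apply] at this
      have hiff : g * y * g⁻¹ ∈ Subgroup.centralizer ({u} : Set G) ↔
          y ∈ Subgroup.centralizer ({u} : Set G) := by
        constructor
        · intro h
          rw [← hgC, Subgroup.mem_centralizer_singleton_iff] at h
          rw [Subgroup.mem_centralizer_singleton_iff]
          have h2 : g⁻¹ * (g * y * g⁻¹ * (g * u * g⁻¹)) * g = g⁻¹ * (g * u * g⁻¹ * (g * y * g⁻¹)) * g := by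
            rw [h]
          have h3 : g⁻¹ * (g * y * g⁻¹ * (g * u * g⁻¹)) * g = y * u := by group
          have h4 : g⁻¹ * (g * u * g⁻¹ * (g * y * g⁻¹)) * g = u * y := by group
          rw [h3, h4] at h2
          exact h2
        · intro h
          rw [Subgroup.mem_centralizer_singleton_iff] at h
          rw [← hgC, Subgroup.mem_centralizer_singleton_iff]
          have h3 : g * y * g⁻¹ * (g * u * g⁻¹) = g * (y * u) * g⁻¹ := by group
          have h4 : g * u * g⁻¹ * (g * y * g⁻¹) = g * (u * y) * g⁻¹ := by group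
          rw [h3, h4, h]
      rw [hAmem, hAmem, hord, hiff]
    set e : MulAut A := A.normalizerMonoidHom ⟨g, hgN⟩ with he
    have heE : e ∈ E := ⟨_, rfl⟩
    have hene : e ≠ 1 := by
      intro h1
      have h2 : ((e ⟨u, huA⟩ : A) : G) = u := by rw [h1]; rfl
      rw [he, hφ] at h2
      apply hgu
      have : g * u * g⁻¹ = u := h2
      calc g * u = (g * u * g⁻¹) * g := by group
        _ = u * g := by rw [this]
    have hdvd : orderOf e ∣ q ^ k := by
      have h1 := orderOf_map_dvd A.normalizerMonoidHom (⟨g, hgN⟩ : Subgroup.normalizer (A : Set G))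
      rw [Subgroup.orderOf_mk, hk] at h1
      exact h1
    obtain ⟨i, _, hi⟩ := (Nat.dvd_prime_pow hq).mp hdvd
    have hi0 : i ≠ 0 := by
      intro h0
      rw [h0, pow_zero, orderOf_eq_one_iff] at hi
      exact hene hi
    have hqe : q ∣ orderOf e := by
      rw [hi]; exact dvd_pow_self q hi0
    have h5 : orderOf (⟨e, heE⟩ : E) ∣ Nat.card E := orderOf_dvd_natCard _
    rw [Subgroup.orderOf_mk] at h5
    exact hqe.trans h5
  exact hPE A hcomm E Z p hp hfpf hZfix hthird s t hs ht hsp htp (hdiv s hs hsp hsa)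
    (hdiv t ht htp hta)

end Cfsg.Agent.Lib.Helper9.S4033
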