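import Mathlib
import Cfsg.Agent.Lib.Helper9.S4033.Defs
import Cfsg.Agent.S4034

/-!
# S4033: final assembly from the packages `PkgH2`, `PkgTA`, `PkgX`, `PkgB`.
-/

set_option autoImplicit false

namespace Cfsg.Agent.Lib.Helper9.S4033

universe u

theorem final_of_pkgs (hH2 : PkgH2.{u}) (hTA : PkgTA.{u}) (hX : PkgX.{u}) (hB : PkgB.{u})
    {G : Type u} [Group G] [Finite G] {p : ℕ} (hp : p.Prime)
    (h2 : Set.ncard (Set.range fun x : {x : G // (orderOf x).Coprime p} =>
      (ConjClasses.mk (x : G)).carrier.ncard) = 2) :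
    (∃ H : Subgroup G, IsMulCommutative H ∧ ¬ p ∣ Nat.card H ∧ ∃ k : ℕ, H.index = p ^ k) ∨
    (∃ (q : ℕ) (_ : Fact q.Prime) (P : Sylow p G) (Q : Sylow q G) (A : Subgroup G), q ≠ p ∧
        A ≤ Subgroup.center G ∧
        Nat.card ↥((P : Subgroup G) ⊔ (Q : Subgroup G)) = Nat.card P * Nat.card Q ∧
        ((P : Subgroup G) ⊔ (Q : Subgroup G)).Normal ∧
        ((P : Subgroup G) ⊔ (Q : Subgroup G)) ⊓ A = ⊥ ∧
        ((P : Subgroup G) ⊔ (Q : Subgroup G)) ⊔ A = ⊤) := by
  obtain ⟨m, hm⟩ := hH2 G p h2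
  by_cases hTP : TwoPrimes G p
  · left
    have hTP' := hTP
    obtain ⟨s, t, hs, ht, hst, hsp, htp, ⟨x0, hx0, k0, hk0⟩, _⟩ := hTP'
    have hx0p : (orderOf x0).Coprime p := by
      rw [hk0]; exact Nat.Coprime.pow_left k0 ((Nat.coprime_primes hs hp).mpr hsp)
    have hGpos : 0 < Nat.card G := Nat.card_pos
    -- all noncentral p-regular centralizers have order `c = |G| / m`
    have hcard : ∀ x : G, (orderOf x).Coprime p → x ∉ Subgroup.center G →
        Nat.card (Subgroup.centralizer ({x} : Set G)) * m = Nat.card G := by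
      intro x hx hxn
      have h1 := (Subgroup.centralizer ({x} : Set G)).card_mul_index
      rw [(hm x hx).2 hxn] at h1
      exact h1
    set c : ℕ := Nat.card (Subgroup.centralizer ({x0} : Set G)) with hc
    have hc0 : c ≠ 0 := Nat.card_pos.ne'
    have hm0 : 0 < m := by
      rcases Nat.eq_zero_or_pos m with h0 | h0
      · have := hcard x0 hx0p hx0
        rw [h0, mul_zero] at this
        omega
      · exact h0
    have hcardc : ∀ x : G, (orderOf x).Coprime p → x ∉ Subgroup.center G →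
        Nat.card (Subgroup.centralizer ({x} : Set G)) = c := by
      intro x hx hxn
      have h1 := hcard x hx hxn
      have h2 := hcard x0 hx0p hx0
      rw [← h2] at h1
      exact Nat.eq_of_mul_eq_mul_right hm0 h1
    set a : ℕ := c / p ^ c.factorization p with ha
    have hca : p ^ c.factorization p * a = c := Nat.ordProj_mul_ordCompl_eq_self c p
    have hacop : a.Coprime p := (Nat.coprime_ordCompl hp hc0).symm
    have hapos : 0 < a := by
      rcases Nat.eq_zero_or_pos a with h0 | h0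
      · rw [h0, mul_zero] at hca
        exact absurd hca.symm hc0
      · exact h0
    obtain ⟨e, he⟩ : ∃ e : ℕ, p ^ e * a = c := ⟨_, hca⟩
    have hHyp : HypX G p a := by
      intro u hu hun
      refine ⟨hTA G p m hp (fun x hx hxn => (hm x hx).2 hxn) hTP u hu hun, e, ?_⟩
      rw [hcardc u hu hun, he]
    obtain ⟨k', hk'⟩ := hX G p a hp hacop hHyp hTP
    have hGc : c * m = Nat.card G := hcard x0 hx0p hx0
    have hpm : p ^ k' = p ^ e * m := by
      have h3 : p ^ k' * a = p ^ e * m * a := by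
        rw [← hk', ← hGc, ← he]; ring
      exact Nat.eq_of_mul_eq_mul_right hapos h3
    have hmdvd : m ∣ p ^ k' := ⟨p ^ e, by rw [hpm]; ring⟩
    obtain ⟨j, _, hj⟩ := (Nat.dvd_prime_pow hp).mp hmdvd
    refine (Cfsg.Agent.S4034.result hp).mp ?_
    intro x hx
    rcases (hm x hx).1 with h1 | h1
    · exact ⟨0, by rw [h1, pow_zero]⟩
    · exact ⟨j, by rw [h1, hj]⟩
  · right
    have key : ∀ q : ℕ, q.Prime → q ≠ p →
        (∀ (x : G) (r : ℕ), r.Prime → r ≠ p → r ≠ q → (∃ k : ℕ, orderOf x = r ^ k) →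
          x ∈ Subgroup.center G) →
        (∃ (q : ℕ) (_ : Fact q.Prime) (P : Sylow p G) (Q : Sylow q G) (A : Subgroup G), q ≠ p ∧
        A ≤ Subgroup.center G ∧
        Nat.card ↥((P : Subgroup G) ⊔ (Q : Subgroup G)) = Nat.card P * Nat.card Q ∧
        ((P : Subgroup G) ⊔ (Q : Subgroup G)).Normal ∧
        ((P : Subgroup G) ⊔ (Q : Subgroup G)) ⊓ A = ⊥ ∧
        ((P : Subgroup G) ⊔ (Q : Subgroup G)) ⊔ A = ⊤) := by
      intro q hq hqp hyp
      obtain ⟨P, Q, A, h1, h2', h3, h4, h5⟩ := hB G p q hp hq hqp hyp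
      exact ⟨q, ⟨hq⟩, P, Q, A, hqp, h1, h2', h3, h4, h5⟩
    by_cases hq : ∃ q : ℕ, q.Prime ∧ q ≠ p ∧ NC G q
    · obtain ⟨q, hq, hqp, hNC⟩ := hq
      refine key q hq hqp ?_
      intro x r hr hrp hrq hk
      by_contra hx
      exact hTP ⟨q, r, hq, hr, Ne.symm hrq, hqp, hrp, hNC, ⟨x, hx, hk⟩⟩
    · have hnone : ∀ (x : G) (r : ℕ), r.Prime → r ≠ p → (∃ k : ℕ, orderOf x = r ^ k) →
          x ∈ Subgroup.center G := by
        intro x r hr hrp hk
        by_contra hx
        exact hq ⟨r, hr, hrp, ⟨x, hx, hk⟩⟩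
      by_cases hp2 : p = 2
      · exact key 3 Nat.prime_three (by omega) (fun x r hr hrp _ hk => hnone x r hr hrp hk)
      · exact key 2 Nat.prime_two (fun h => hp2 h.symm) (fun x r hr hrp _ hk => hnone x r hr hrp hk)

end Cfsg.Agent.Lib.Helper9.S4033
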